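import Cfsg.Agent.A8R.A

/-! The first frame `F1` from an embedding of `(S₃ × S₅)⁺` onto `N(⟨z⟩)`. -/

set_option autoImplicit false

namespace Cfsg.Agent.A8R

open Equiv Subgroup

variable {G : Type*} [Group G] [Finite G]

theorem pa_h9 (P : Sylow 3 G) (D : Subgroup G) (hDP : D = P) (hcard : Nat.card D = 9) (hexp : ∀ a ∈ D, a ^ 3 = 1)
    (hC : centralizer (D : Set G) = D) (i : G) (hi : orderOf i = 2) : ¬ 9 ∣ Nat.card (centralizer ({i} : Set G)) := by
  intro hd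
  have : Fact (Nat.Prime 3) := ⟨Nat.prime_three⟩
  obtain ⟨K, hK⟩ := Sylow.exists_subgroup_card_pow_prime (G := centralizer ({i} : Set G)) 3 (n := 2) hd
  have hR : Nat.card (K.map (centralizer ({i} : Set G)).subtype) = 3 ^ 2 := by
    rw [card_map_of_injective (subtype_injective _), hK]
  obtain ⟨P', hP'⟩ := (IsPGroup.of_card hR).exists_le_sylow
  obtain ⟨g, rfl⟩ := MulAction.exists_smul_eq G P P'
  have hc : Nat.card ((g • P : Sylow 3 G) : Subgroup G) = 9 := by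
    rw [Sylow.card_eq_multiplicity, ← P.card_eq_multiplicity, ← hDP, hcard]
  have e := eq_of_le_of_card_ge hP' (by rw [hc, hR]; rfl)
  have hm : g⁻¹ * i * g ∈ D := by
    rw [← hC, mem_centralizer_iff]
    intro d hd
    have h1 : g * d * g⁻¹ ∈ ((g • P : Sylow 3 G) : Subgroup G) := by
      rw [Sylow.coe_subgroup_smul]
      exact smul_mem_pointwise_smul d (MulAut.conj g) _ (hDP ▸ hd)
    rw [← e] at h1
    have h2 := mem_centralizer_singleton_iff.1 (map_subtype_le _ h1)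
    calc _ = g⁻¹ * (g * d * g⁻¹ * i) * g := by group
      _ = _ := by rw [h2]; group
  have h3 : i ^ 3 = 1 := by
    have := hexp _ hm
    have e2 : (g⁻¹ * i * g) ^ 3 = g⁻¹ * i ^ 3 * g := by
      have := conj_pow (a := g⁻¹) (b := i) (i := 3)
      rwa [inv_inv] at this
    rw [e2] at this
    calc _ = g * (g⁻¹ * i ^ 3 * g) * g⁻¹ := by group
      _ = 1 := by rw [this]; group
  have := orderOf_dvd_of_pow_eq_one h3
  rw [hi] at this
  omega

theorem pa_cc (g x : G) : Nat.card (centralizer ({g * x * g⁻¹} : Set G)) = Nat.card (centralizer ({x} : Set G)) := by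
  have : centralizer ({g * x * g⁻¹} : Set G) = (centralizer ({x} : Set G)).map (MulAut.conj g).toMonoidHom := by
    ext w
    rw [mem_map_equiv, mem_centralizer_singleton_iff, mem_centralizer_singleton_iff]
    simp only [MulAut.conj_symm_apply]
    constructor
    · intro h
      calc _ = g⁻¹ * (w * (g * x * g⁻¹)) * g := by group
        _ = _ := by rw [h]; group
    · intro h
      calc _ = g * (g⁻¹ * w * g * x) * g⁻¹ := by group
        _ = _ := by rw [h]; group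
  rw [this, card_map_of_injective (MulAut.conj g).injective]

omit [Finite G] in
theorem pa_le {w x : G} (h : x ∈ zpowers w) : centralizer ({w} : Set G) ≤ centralizer ({x} : Set G) := by
  obtain ⟨k, rfl⟩ := h
  intro g hg
  rw [mem_centralizer_singleton_iff] at hg ⊢
  exact (Commute.zpow_right hg k).eq

/-- the Sylow 3-subgroup of the model -/
def pa_D0 : Subgroup L0 where
  carrier := {l | ∃ i j : Fin 3, l = z0 ^ (i : ℕ) * y0 ^ (j : ℕ)}
  one_mem' := ⟨0, 0, by decide +kernel⟩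
  mul_mem' := by
    rintro _ _ ⟨i, j, rfl⟩ ⟨k, l, rfl⟩
    exact ⟨i + k, j + l, by revert i j k l; decide +kernel⟩
  inv_mem' := by
    rintro _ ⟨i, j, rfl⟩
    exact ⟨-i, -j, by revert i j; decide +kernel⟩

omit [Finite G] in
theorem pa_el {ψ : L0 →* G} {d : G} (hd : d ∈ closure ({ψ z0, ψ y0} : Set G)) :
    ∃ i j : Fin 3, d = ψ (z0 ^ (i : ℕ) * y0 ^ (j : ℕ)) := by
  have : closure ({ψ z0, ψ y0} : Set G) ≤ pa_D0.map ψ := by
    rw [closure_le]
    rintro _ (rfl | rfl)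
    · exact ⟨_, ⟨1, 0, by decide +kernel⟩, rfl⟩
    · exact ⟨_, ⟨0, 1, by decide +kernel⟩, rfl⟩
  obtain ⟨_, ⟨i, j, rfl⟩, rfl⟩ := this hd
  exact ⟨i, j, rfl⟩

omit [Finite G] in
theorem pa_mem {ψ : L0 →* G} (i j : ℕ) : ψ (z0 ^ i * y0 ^ j) ∈ closure ({ψ z0, ψ y0} : Set G) := by
  rw [map_mul, map_pow, map_pow]
  exact mul_mem (pow_mem (subset_closure (by simp)) _) (pow_mem (subset_closure (by simp)) _)

theorem pa_nm {ψ : L0 →* G} (l : L0) (hl : ∀ i j : Fin 3, ∃ i' j' : Fin 3,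
    l * (z0 ^ (i : ℕ) * y0 ^ (j : ℕ)) * l⁻¹ = z0 ^ (i' : ℕ) * y0 ^ (j' : ℕ)) :
    ψ l ∈ normalizer (closure ({ψ z0, ψ y0} : Set G) : Set G) := by
  refine mem_normalizer_fintype fun d hd => ?_
  obtain ⟨i, j, rfl⟩ := pa_el hd
  obtain ⟨i', j', e⟩ := hl i j
  rw [← map_inv, ← map_mul, ← map_mul, e]
  exact pa_mem _ _

theorem pa_d8 : ∀ a b : DihedralGroup 4, a * a = 1 → b * b = 1 → a ≠ 1 → b ≠ 1 → a * b ≠ 1 →
    (∀ x, x * (a * b) * x⁻¹ * (a * b)⁻¹ = 1) → ∃ x, x * x = 1 ∧ x * a * x⁻¹ * b⁻¹ = 1 := by decide +kernel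

theorem pa_t {ψ : L0 →* G} (hi : Function.Injective ψ) (D : Subgroup G) (hD : closure ({ψ z0, ψ y0} : Set G) = D)
    (hC : centralizer (D : Set G) = D)
    (eN : normalizer (D : Set G) ⧸ D.subgroupOf (normalizer (D : Set G)) ≃* DihedralGroup 4) :
    ∃ t : G, t * t = 1 ∧ t * ψ z0 * t⁻¹ = ψ y0 ∧ t * ψ a0 * t⁻¹ = ψ b0 := by
  subst hD
  set D := closure ({ψ z0, ψ y0} : Set G) with hD
  let q : normalizer (D : Set G) →* DihedralGroup 4 := eN.toMonoidHom.comp (QuotientGroup.mk' _)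
  have hq : ∀ n, q n = 1 ↔ (n : G) ∈ D := fun n => by
    simp only [q, MonoidHom.comp_apply, MulEquiv.coe_toMonoidHom, QuotientGroup.mk'_apply, EmbeddingLike.map_eq_one_iff,
      QuotientGroup.eq_one_iff, mem_subgroupOf]
  have hs : Function.Surjective q := eN.surjective.comp (QuotientGroup.mk'_surjective _)
  have hA : ψ a0 ∈ normalizer (D : Set G) := pa_nm a0 (by decide +kernel)
  have hB : ψ b0 ∈ normalizer (D : Set G) := pa_nm b0 (by decide +kernel)
  have nd : ∀ l : L0, (∀ i j : Fin 3, l ≠ z0 ^ (i : ℕ) * y0 ^ (j : ℕ)) → ψ l ∉ D := fun l hl hm => by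
    obtain ⟨i, j, e⟩ := pa_el hm
    exact hl i j (hi e)
  set c := ψ a0 * ψ b0 with hc
  have cc : c * c = 1 := by rw [hc, ← map_mul, ← map_mul, ← map_one ψ]; congr 1; decide +kernel
  have inv : ∀ d ∈ D, c * d * c⁻¹ = d⁻¹ := fun d hd => by
    obtain ⟨i, j, rfl⟩ := pa_el hd
    rw [hc, ← map_mul, ← map_inv, ← map_mul, ← map_mul, ← map_inv]
    congr 1; clear hd; revert i j; decide +kernel
  have d3 : ∀ d ∈ D, d * d * d = 1 := fun d hd => by
    obtain ⟨i, j, rfl⟩ := pa_el hd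
    rw [← map_mul, ← map_mul, ← map_one ψ]
    congr 1; clear hd; revert i j; decide +kernel
  have cen : ∀ n ∈ normalizer (D : Set G), n * c * n⁻¹ * c⁻¹ ∈ D := fun n hn => by
    rw [← hC, mem_centralizer_iff]
    intro d hd
    have h1 := inv _ ((mem_normalizer_iff''.1 hn d).1 hd)
    have h2 := inv _ (inv_mem hd)
    have h3 : c⁻¹ = c := inv_eq_of_mul_eq_one_right cc
    have h4 : c⁻¹ * d * c = d⁻¹ := by have := inv d hd; rw [h3] at this ⊢; exact this
    have h5 := inv _ ((mem_normalizer_iff''.1 hn _).1 (inv_mem hd))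
    symm
    calc n * c * n⁻¹ * c⁻¹ * d = n * (c * (n⁻¹ * (c⁻¹ * d * c) * n) * c⁻¹) * c * n⁻¹ * c⁻¹ := by group
      _ = _ := by rw [h4, h5]; group
  have tr : ∀ d ∈ D, d * c = c * d → d = 1 := fun d hd e => by
    have h1 := inv d hd
    rw [← e, mul_inv_cancel_right] at h1
    have h2 := d3 d hd
    nth_rewrite 1 [h1] at h2
    simpa using h2
  obtain ⟨x, hx1, hx2⟩ := pa_d8 (q ⟨_, hA⟩) (q ⟨_, hB⟩)
    (by rw [← map_mul, hq, coe_mul, ← map_mul, show a0 * a0 = 1 by decide +kernel, map_one]; exact one_mem _)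
    (by rw [← map_mul, hq, coe_mul, ← map_mul, show b0 * b0 = 1 by decide +kernel, map_one]; exact one_mem _)
    (by rw [Ne, hq]; exact nd a0 (by decide +kernel)) (by rw [Ne, hq]; exact nd b0 (by decide +kernel))
    (by rw [Ne, ← map_mul, hq, coe_mul, ← map_mul]; exact nd _ (by decide +kernel))
    (fun x => by
      obtain ⟨n, rfl⟩ := hs x
      rw [← map_mul, ← map_inv, ← map_inv, ← map_mul, ← map_mul, ← map_mul, hq]
      exact cen n n.2)
  obtain ⟨n, rfl⟩ := hs x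
  have hd := cen n n.2
  set d := (n : G) * c * (n : G)⁻¹ * c⁻¹ with hdd
  have hdN : d ∈ normalizer (D : Set G) := le_normalizer hd
  have qd : q ⟨d, hdN⟩ = 1 := (hq _).2 hd
  have tc : d * n * c = c * (d * n) := by
    have h1 := inv d hd
    have h2 := d3 d hd
    calc d * n * c = d * d * c * n := by rw [hdd]; group
      _ = d⁻¹ * c * n := by rw [eq_inv_of_mul_eq_one_left h2]
      _ = _ := by rw [← h1]; group
  set t := d * (n : G) with ht
  have htN : t ∈ normalizer (D : Set G) := mul_mem hdN n.2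
  have qt : q ⟨t, htN⟩ = q n := by rw [← one_mul (q n), ← qd, ← map_mul]; rfl
  have ac : ψ a0 * c = c * ψ a0 := by rw [hc, ← map_mul, ← map_mul, ← map_mul]; congr 1; decide +kernel
  have bc : ψ b0 * c = c * ψ b0 := by rw [hc, ← map_mul, ← map_mul, ← map_mul]; congr 1; decide +kernel
  have tt : t * t = 1 := by
    refine tr _ ?_ (by rw [mul_assoc, tc, ← mul_assoc, tc, mul_assoc])
    rw [← qt, ← map_mul, hq] at hx1
    exact hx1
  have ta : t * ψ a0 * t⁻¹ = ψ b0 := by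
    rw [← mul_inv_eq_one]
    refine tr _ ?_ ((((show Commute t c from tc).mul_left ac).mul_left (show Commute t c from tc).inv_left).mul_left
      (show Commute (ψ b0) c from bc).inv_left).eq
    rw [← qt, ← map_inv, ← map_inv, ← map_mul, ← map_mul, ← map_mul, hq] at hx2
    exact hx2
  have hz : ψ z0 ∈ D := subset_closure (by simp)
  obtain ⟨i, j, e⟩ := pa_el ((mem_normalizer_iff.1 htN _).1 hz)
  have za : ψ z0 * ψ a0 = ψ a0 * ψ z0 := by rw [← map_mul, ← map_mul, sd0.za]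
  have e1 : z0 ^ (i : ℕ) * y0 ^ (j : ℕ) * b0 = b0 * (z0 ^ (i : ℕ) * y0 ^ (j : ℕ)) := by
    apply hi
    rw [map_mul, map_mul ψ b0, ← e, ← ta]
    calc _ = t * (ψ z0 * ψ a0) * t⁻¹ := by group
      _ = _ := by rw [za]; group
  have e2 : z0 ^ (i : ℕ) * y0 ^ (j : ℕ) ≠ 1 := fun h => by
    rw [h, map_one] at e
    have : ψ z0 = ψ 1 := by
      rw [map_one]
      calc _ = t⁻¹ * (t * ψ z0 * t⁻¹) * t := by group
        _ = _ := by rw [e]; group
    exact absurd (hi this) (by decide +kernel)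
  have e3 : z0 ^ (i : ℕ) * y0 ^ (j : ℕ) = y0 ∨ z0 ^ (i : ℕ) * y0 ^ (j : ℕ) = y0⁻¹ := by
    have k : ∀ i j : Fin 3, z0 ^ (i : ℕ) * y0 ^ (j : ℕ) * b0 ≠ b0 * (z0 ^ (i : ℕ) * y0 ^ (j : ℕ)) ∨ z0 ^ (i : ℕ) * y0 ^ (j : ℕ) = 1 ∨
        z0 ^ (i : ℕ) * y0 ^ (j : ℕ) = y0 ∨ z0 ^ (i : ℕ) * y0 ^ (j : ℕ) = y0⁻¹ := by decide +kernel
    exact ((k i j).resolve_left (not_not.2 e1)).resolve_left e2
  rcases e3 with e3 | e3 <;> rw [e3] at e
  · exact ⟨t, tt, e, ta⟩
  · refine ⟨t * c, ?_, ?_, ?_⟩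
    · calc _ = t * (c * t) * c := by group
        _ = t * t * (c * c) := by rw [← tc]; group
        _ = 1 := by rw [tt, cc, one_mul]
    · calc _ = t * (c * ψ z0 * c⁻¹) * t⁻¹ := by group
        _ = (t * ψ z0 * t⁻¹)⁻¹ := by rw [inv _ hz]; group
        _ = _ := by rw [e, map_inv, inv_inv]
    · calc _ = t * (c * ψ a0) * c⁻¹ * t⁻¹ := by group
        _ = t * ψ a0 * t⁻¹ := by rw [← ac]; group
        _ = _ := ta

theorem pa_tri {ψ : L0 →* G} {d : G} (hd : d ∈ closure ({ψ z0, ψ y0} : Set G)) : d ∈ zpowers (ψ z0) ∨ d ∈ zpowers (ψ y0) ∨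
    ∃ h ∈ normalizer (closure ({ψ z0, ψ y0} : Set G) : Set G), h * ψ (z0 * y0) * h⁻¹ = d := by
  obtain ⟨i, j, rfl⟩ := pa_el hd
  have hA : ψ a0 ∈ normalizer (closure ({ψ z0, ψ y0} : Set G) : Set G) := pa_nm a0 (by decide +kernel)
  have hB : ψ b0 ∈ normalizer (closure ({ψ z0, ψ y0} : Set G) : Set G) := pa_nm b0 (by decide +kernel)
  have k : ∀ i j : Fin 3, j = 0 ∨ i = 0 ∨ ∃ u v : Fin 2, a0 ^ (u : ℕ) * b0 ^ (v : ℕ) * (z0 * y0) * (a0 ^ (u : ℕ) * b0 ^ (v : ℕ))⁻¹ =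
      z0 ^ (i : ℕ) * y0 ^ (j : ℕ) := by decide +kernel
  rcases k i j with rfl | rfl | ⟨u, v, e⟩
  · left; simp
  · right; left; simp
  · right; right
    refine ⟨ψ (a0 ^ (u : ℕ) * b0 ^ (v : ℕ)), ?_, by rw [← map_inv, ← map_mul, ← map_mul, e]⟩
    rw [map_mul, map_pow, map_pow]
    exact mul_mem (pow_mem hA _) (pow_mem hB _)

/-- `F1` from the embedding. -/
theorem f1_of_psi (P : Sylow 3 G) (D : Subgroup G) (hDP : D = P) (y z : G) (hgen : closure {y, z} = D)
    (hcard : Nat.card D = 9) (hexp : ∀ a ∈ D, a ^ 3 = 1) (hC : centralizer (D : Set G) = D)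
    (eN : normalizer (D : Set G) ⧸ D.subgroupOf (normalizer (D : Set G)) ≃* DihedralGroup 4)
    (hycard : Nat.card (centralizer ({y} : Set G)) = 18)
    (Ny : Subgroup G) (hNy : Ny = normalizer (zpowers y : Set G)) (hyN : D ≤ Ny) [hyNn : (D.subgroupOf Ny).Normal]
    (eC : centralizer ({z} : Set G) ≃* Multiplicative (ZMod 3) × alternatingGroup (Fin 5))
    {ψ : L0 →* G} (hi : Function.Injective ψ) (hr : ψ.range = normalizer (zpowers z : Set G))
    (hz : zpowers (ψ z0) = zpowers z) (hD : closure {ψ z0, ψ y0} = D) : ∃ t : G, F1 ψ t := by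
  obtain ⟨t, tt, tz, ta⟩ := pa_t hi D hD hC eN
  have cz : Nat.card (centralizer ({ψ z0} : Set G)) = 180 := by
    rw [le_antisymm (pa_le (hz ▸ mem_zpowers z)) (pa_le (hz ▸ mem_zpowers (ψ z0))), Nat.card_congr eC.toEquiv, Nat.card_prod,
      nat_card_alternatingGroup]
    simp [Nat.factorial]
  have cy : Nat.card (centralizer ({ψ y0} : Set G)) = 180 := by rw [← tz, pa_cc, cz]
  have hyD : y ∈ D := hgen ▸ subset_closure (by simp)
  obtain ⟨h, hh, e⟩ : ∃ h ∈ normalizer (D : Set G), h * ψ (z0 * y0) * h⁻¹ = y := by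
    rcases pa_tri (hD ▸ hyD) with h | h | h
    · have := card_le_of_le (pa_le h); omega
    · have := card_le_of_le (pa_le h); omega
    · rwa [hD] at h
  have czy : Nat.card (centralizer ({ψ (z0 * y0)} : Set G)) = 18 := by rw [← pa_cc h, e, hycard]
  have nrm : ∀ {g w : G}, g * w * g⁻¹ ∈ zpowers w → g ∈ normalizer (zpowers w : Set G) := fun {g w} hg =>
    mem_normalizer_fintype fun n hn => by
      obtain ⟨k, rfl⟩ := hn
      have := zpow_mem hg k
      rwa [conj_zpow] at this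
  refine ⟨t, hi, fun g hg => ?_, tt, tz, ta, fun g hg => ?_, by rw [czy]; decide, pa_h9 P D hDP hcard hexp hC⟩
  · rw [hr, ← hz]; exact nrm hg
  · have h1 : h * g * h⁻¹ ∈ Ny := by
      rw [hNy]
      apply nrm
      obtain ⟨k, hk⟩ := hg
      refine ⟨k, ?_⟩
      simp only at hk ⊢
      rw [← e, conj_zpow, hk]; group
    have h2 := (normal_subgroupOf_iff_le_normalizer hyN).1 hyNn h1
    have h3 : g ∈ normalizer (D : Set G) := by simpa [mul_assoc] using mul_mem (mul_mem (inv_mem hh) h2) hh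
    have h4 : g * ψ z0 * g⁻¹ ∈ D := (mem_normalizer_iff.1 h3 _).1 (hD ▸ subset_closure (by simp))
    rcases pa_tri (hD ▸ h4) with h | h | ⟨k, -, hk⟩
    · exact Or.inl h
    · exact Or.inr h
    · have := pa_cc k (ψ (z0 * y0))
      rw [hk, pa_cc, cz, czy] at this
      omega

end Cfsg.Agent.A8R
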