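import Cfsg.Agent.A8R.PA1
import Cfsg.Agent.A8R.PA2

/-! The first frame `F1` from the 3-local hypotheses. -/

set_option autoImplicit false

namespace Cfsg.Agent.A8R

open Equiv Subgroup

theorem exists_F1 {G : Type*} [Group G] [Finite G]
    (P : Sylow 3 G) (D : Subgroup G) (hDP : D = P) (y z : G) (hgen : Subgroup.closure {y, z} = D)
    (hcomm : IsMulCommutative D) (hcard : Nat.card D = 9) (hexp : ∀ a ∈ D, a ^ 3 = 1)
    (hC : Subgroup.centralizer (D : Set G) = D)
    (eN : Subgroup.normalizer (D : Set G) ⧸ D.subgroupOf (Subgroup.normalizer (D : Set G)) ≃* DihedralGroup 4)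
    (_hyn : (D.subgroupOf (Subgroup.centralizer ({y} : Set G))).Normal)
    (hycard : Nat.card (Subgroup.centralizer ({y} : Set G)) = 18)
    (Ny : Subgroup G) (hNy : Ny = Subgroup.normalizer (Subgroup.zpowers y : Set G))
    (hyN : D ≤ Ny) [hyNn : (D.subgroupOf Ny).Normal]
    (_hyNcard : Nat.card (Ny ⧸ D.subgroupOf Ny) = 4) (_hyNexp : ∀ g : Ny ⧸ D.subgroupOf Ny, g ^ 2 = 1)
    (eC : Subgroup.centralizer ({z} : Set G) ≃* Multiplicative (ZMod 3) × alternatingGroup (Fin 5))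
    (eL : Subgroup.normalizer (Subgroup.zpowers z : Set G) ≃* L0) :
    ∃ (ψ : L0 →* G) (t : G), F1 ψ t := by
  obtain ⟨ψ, hi, hr, hz, hD⟩ := exists_psi' hgen hcomm hcard hexp eL
  exact ⟨ψ, f1_of_psi P D hDP y z hgen hcard hexp hC eN hycard Ny hNy hyN eC hi hr hz hD⟩

end Cfsg.Agent.A8R
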