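import Cfsg.Agent.A8R.A

/-! The embedding `ψ : (S₃ × S₅)⁺ → G` onto `N(⟨z⟩)`. -/

set_option autoImplicit false

namespace Cfsg.Agent.A8R

open Equiv Subgroup

theorem pa1_A : ∀ q : Perm (Fin 5), q ^ 3 = 1 → q ≠ 1 →
    ∃ c : Perm (Fin 5), c * (swap 0 2 * swap 0 1) * c⁻¹ = q ∧ Perm.sign c = 1 := by decide +kernel

theorem pa1_B : ∀ q : Perm (Fin 5), q ^ 3 = 1 → (∃ i : Fin 3, y0.1.2 * q * y0.1.2⁻¹ = q ^ i.val) →
    (∃ i : Fin 3, v0.1.2 * q * v0.1.2⁻¹ = q ^ i.val) → q = 1 := by decide +kernel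

theorem pa1_C : ∀ p : Perm (Fin 3), p ^ 3 = 1 → ∃ i : Fin 3, p = z0.1.1 ^ i.val := by decide +kernel

theorem pa1_D : ∀ i : Fin 3, (z0 ^ i.val).1.2 = 1 ∧ (z0 ^ i.val ≠ 1 → z0 ^ i.val = z0 ∨ z0 ^ i.val = z0⁻¹) := by decide +kernel

theorem pa1_pow {G : Type*} [Group G] {x u : G} (h3 : x ^ 3 = 1) (hu : u ∈ zpowers x) : ∃ i : Fin 3, u = x ^ i.val := by
  obtain ⟨k, rfl⟩ := hu
  refine ⟨⟨(k % 3).toNat, by omega⟩, ?_⟩
  have : x ^ (3 : ℤ) = 1 := by exact_mod_cast h3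
  show x ^ k = x ^ (k % 3).toNat
  rw [← zpow_natCast, Int.toNat_of_nonneg (by omega)]
  conv_lhs => rw [← Int.emod_add_mul_ediv k 3, zpow_add, zpow_mul, this, one_zpow, mul_one]

theorem pa1_l {l : L0} (h3 : l ^ 3 = 1) (h1 : l ≠ 1) (hn : ∀ g : L0, g * l * g⁻¹ ∈ zpowers l) : l = z0 ∨ l = z0⁻¹ := by
  have e1 : l.1.1 ^ 3 = 1 := congrArg (fun x : L0 => x.1.1) h3
  have e2 : l.1.2 ^ 3 = 1 := congrArg (fun x : L0 => x.1.2) h3
  have e3 : l.1.2 = 1 := by
    obtain ⟨i, hi⟩ := pa1_pow h3 (hn y0)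
    obtain ⟨j, hj⟩ := pa1_pow h3 (hn v0)
    exact pa1_B _ e2 ⟨i, congrArg (fun x : L0 => x.1.2) hi⟩ ⟨j, congrArg (fun x : L0 => x.1.2) hj⟩
  obtain ⟨i, hi⟩ := pa1_C _ e1
  have e4 : l = z0 ^ i.val := Subtype.ext (Prod.ext hi (e3.trans (pa1_D i).1.symm))
  rw [e4] at h1 ⊢
  exact (pa1_D i).2 h1

theorem pa1_m {m : L0} (h3 : m ^ 3 = 1) (h1 : m ∉ zpowers z0) : ∃ (c : L0) (i : ℕ), m = z0 ^ i * (c * y0 * c⁻¹) ∧ c * z0 * c⁻¹ = z0 := by
  have e1 : m.1.1 ^ 3 = 1 := congrArg (fun x : L0 => x.1.1) h3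
  have e2 : m.1.2 ^ 3 = 1 := congrArg (fun x : L0 => x.1.2) h3
  obtain ⟨i, hi⟩ := pa1_C _ e1
  have z2 : (z0 ^ i.val).1.2 = 1 := (pa1_D i).1
  have n1 : m.1.2 ≠ 1 := fun e => h1 (by
    rw [show m = z0 ^ i.val from Subtype.ext (Prod.ext hi (e.trans z2.symm))]
    exact pow_mem (mem_zpowers _) _)
  obtain ⟨c, hc, sc⟩ := pa1_A _ e2 n1
  refine ⟨⟨(1, c), MonoidHom.mem_ker.2 (by simp [sc])⟩, i, Subtype.ext (Prod.ext ?_ ?_), Subtype.ext (Prod.ext ?_ ?_)⟩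
  · show m.1.1 = z0.1.1 ^ i.val * (1 * 1 * 1⁻¹)
    rw [hi]; simp
  · show m.1.2 = (z0 ^ i.val).1.2 * (c * (swap 0 2 * swap 0 1) * c⁻¹)
    rw [z2, hc, one_mul]
  · show 1 * z0.1.1 * 1⁻¹ = z0.1.1
    simp
  · show c * 1 * c⁻¹ = 1
    simp

/-- `PA1`, with only the hypotheses it uses. -/
theorem exists_psi' {G : Type*} [Group G] [Finite G] {D : Subgroup G} {y z : G} (hgen : closure {y, z} = D)
    (hcomm : IsMulCommutative D) (hcard : Nat.card D = 9) (hexp : ∀ a ∈ D, a ^ 3 = 1)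
    (eL : normalizer (zpowers z : Set G) ≃* L0) :
    ∃ ψ : L0 →* G, Function.Injective ψ ∧ ψ.range = normalizer (zpowers z : Set G) ∧ zpowers (ψ z0) = zpowers z ∧
      closure {ψ z0, ψ y0} = D := by
  have hy : y ∈ D := hgen ▸ subset_closure (by simp)
  have hz : z ∈ D := hgen ▸ subset_closure (by simp)
  have yz : y * z = z * y := congrArg Subtype.val (hcomm.is_comm.comm ⟨y, hy⟩ ⟨z, hz⟩)
  have small : ∀ x ∈ D, y ∈ zpowers x → z ∈ zpowers x → False := fun x hx h1 h2 => by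
    have h : D ≤ zpowers x := by
      rw [← hgen, closure_le]; rintro _ (rfl | rfl) <;> assumption
    have h3 := card_le_of_le h
    rw [hcard, Nat.card_zpowers] at h3
    have := Nat.le_of_dvd (by norm_num) (orderOf_dvd_of_pow_eq_one (hexp x hx))
    omega
  have zN : z ∈ normalizer (zpowers z : Set G) := le_normalizer (mem_zpowers z)
  have yN : y ∈ normalizer (zpowers z : Set G) := centralizer_le_normalizer _ (by
    rintro _ ⟨k, rfl⟩
    exact (Commute.zpow_left yz.symm k).eq)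
  let ψ0 : L0 →* G := (normalizer (zpowers z : Set G)).subtype.comp eL.symm.toMonoidHom
  have i0 : Function.Injective ψ0 := (subtype_injective _).comp eL.symm.injective
  have r0 : ψ0.range = normalizer (zpowers z : Set G) := by
    rw [MonoidHom.range_comp, MonoidHom.range_eq_top.2 eL.symm.surjective, ← MonoidHom.range_eq_map, range_subtype]
  have el : ψ0 (eL ⟨z, zN⟩) = z := by simp [ψ0]
  have em : ψ0 (eL ⟨y, yN⟩) = y := by simp [ψ0]
  generalize eL ⟨z, zN⟩ = l at el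
  generalize eL ⟨y, yN⟩ = m at em
  have mz : ∀ {a b : L0}, ψ0 a ∈ zpowers (ψ0 b) ↔ a ∈ zpowers b := fun {a b} => by
    rw [← MonoidHom.map_zpowers, mem_map_iff_mem i0]
  have hl : zpowers l = zpowers z0 := by
    rcases pa1_l (l := l) (i0 (by rw [map_pow, el, hexp z hz, map_one])) (fun e => small y hy (mem_zpowers y) (by
      rw [← el, e, map_one]; exact one_mem _)) (fun g => by
      rw [← mz, map_mul, map_mul, map_inv, el]
      exact (mem_normalizer_iff.1 (r0 ▸ ⟨g, rfl⟩ : ψ0 g ∈ normalizer (zpowers z : Set G)) z).1 (mem_zpowers z)) with e | e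
    · rw [e]
    · rw [e, zpowers_inv]
  have e0 : zpowers (ψ0 z0) = zpowers z := by rw [← MonoidHom.map_zpowers, ← hl, MonoidHom.map_zpowers, el]
  obtain ⟨c, i, hm, hc⟩ := pa1_m (m := m) (i0 (by rw [map_pow, em, hexp y hy, map_one])) fun e =>
    small z hz (by rw [← em, ← e0, mz]; exact e) (mem_zpowers z)
  have k1 : (ψ0.comp (MulAut.conj c).toMonoidHom) z0 = ψ0 z0 := congrArg ψ0 hc
  have k2 : y = ψ0 z0 ^ i * (ψ0.comp (MulAut.conj c).toMonoidHom) y0 := by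
    rw [← em, hm, map_mul, map_pow]; rfl
  refine ⟨ψ0.comp (MulAut.conj c).toMonoidHom, i0.comp (MulAut.conj c).injective, ?_, by rw [k1, e0], ?_⟩
  · rw [MonoidHom.range_comp, MonoidHom.range_eq_top.2 (MulAut.conj c).surjective, ← MonoidHom.range_eq_map, r0]
  · rw [k1]
    have zD : ψ0 z0 ∈ D := zpowers_le.2 hz (e0 ▸ mem_zpowers _)
    refine le_antisymm ((closure_le _).2 ?_) (hgen ▸ (closure_le _).2 ?_)
    · rintro _ (rfl | rfl)
      · exact zD
      · exact (mul_mem_cancel_left (pow_mem zD i)).1 (k2 ▸ hy)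
    · rintro _ (rfl | rfl)
      · rw [SetLike.mem_coe, k2]
        exact mul_mem (pow_mem (subset_closure (by simp)) _) (subset_closure (by simp))
      · exact zpowers_le.2 (subset_closure (by simp)) (e0 ▸ mem_zpowers _ : _ ∈ zpowers (ψ0 z0))

/-- `PA1`, with all hypotheses of S3329. -/
theorem exists_psi {G : Type*} [Group G] [Finite G]
    (P : Sylow 3 G) (D : Subgroup G) (_hDP : D = P) (y z : G) (hgen : Subgroup.closure {y, z} = D)
    (hcomm : IsMulCommutative D) (hcard : Nat.card D = 9) (hexp : ∀ a ∈ D, a ^ 3 = 1)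
    (_hC : Subgroup.centralizer (D : Set G) = D)
    (_eN : Subgroup.normalizer (D : Set G) ⧸ D.subgroupOf (Subgroup.normalizer (D : Set G)) ≃* DihedralGroup 4)
    (_hyn : (D.subgroupOf (Subgroup.centralizer ({y} : Set G))).Normal)
    (_hycard : Nat.card (Subgroup.centralizer ({y} : Set G)) = 18)
    (Ny : Subgroup G) (_hNy : Ny = Subgroup.normalizer (Subgroup.zpowers y : Set G))
    (_hyN : D ≤ Ny) [_hyNn : (D.subgroupOf Ny).Normal]
    (_hyNcard : Nat.card (Ny ⧸ D.subgroupOf Ny) = 4) (_hyNexp : ∀ g : Ny ⧸ D.subgroupOf Ny, g ^ 2 = 1)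
    (_eC : Subgroup.centralizer ({z} : Set G) ≃* Multiplicative (ZMod 3) × alternatingGroup (Fin 5))
    (eL : Subgroup.normalizer (Subgroup.zpowers z : Set G) ≃* L0) :
    ∃ ψ : L0 →* G, Function.Injective ψ ∧ ψ.range = normalizer (zpowers z : Set G) ∧ zpowers (ψ z0) = zpowers z ∧
      closure {ψ z0, ψ y0} = D :=
  exists_psi' hgen hcomm hcard hexp eL

end Cfsg.Agent.A8R
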