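import Cfsg.Agent.A8R.PB0

/-! The centralizer of the four-group `V`: either `V × ⟨z⟩` or `v` commutes with a `t`-conjugate. -/

set_option autoImplicit false
set_option synthInstance.maxSize 4096

namespace Cfsg.Agent.A8R

open Equiv Subgroup

/-- table of a map -/
def pbT (a b c d e : Fin 5) (i : Fin 5) : Fin 5 :=
  if i = 0 then a else if i = 1 then b else if i = 2 then c else if i = 3 then d else e

theorem pb_all {P : Perm (Fin 5) → Prop} (h : ∀ a b, a ≠ b → ∀ c, a ≠ c → b ≠ c → ∀ d, a ≠ d → b ≠ d → c ≠ d → ∀ e,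
    ∀ hb : Function.Bijective (pbT a b c d e), P (Equiv.ofBijective _ hb)) (q : Perm (Fin 5)) : P q := by
  have e : pbT (q 0) (q 1) (q 2) (q 3) (q 4) = q := by
    funext i; fin_cases i <;> rfl
  have n : ∀ i j, i ≠ j → q i ≠ q j := fun i j => q.injective.ne
  have := h _ _ (n 0 1 (by decide)) _ (n 0 2 (by decide)) (n 1 2 (by decide)) _ (n 0 3 (by decide)) (n 1 3 (by decide))
    (n 2 3 (by decide)) _ (e ▸ q.bijective)
  convert this using 1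
  exact Equiv.ext fun i => (congrFun e i).symm

theorem pb_e1 (q : Perm (Fin 5)) : q * v0.1.2 = v0.1.2 * q → q * (y0 * v0 * y0⁻¹).1.2 = (y0 * v0 * y0⁻¹).1.2 * q →
    Perm.sign q = 1 ∧ (q = 1 ∨ q = v0.1.2 ∨ q = (y0 * v0 * y0⁻¹).1.2 ∨ q = (v0 * (y0 * v0 * y0⁻¹)).1.2) := by
  revert q; refine pb_all ?_; decide +kernel

theorem pb_e2 (q : Perm (Fin 5)) : Perm.sign q = 1 → q ^ 30 = 1 := by
  revert q; refine pb_all ?_; decide +kernel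

theorem pb_e3 (q : Perm (Fin 5)) : Perm.sign q = 1 → q ^ 10 = 1 → (q * (y0.1.2 * q * y0.1.2⁻¹)) ^ 10 = 1 →
    (q * (q * (y0.1.2 * q * y0.1.2⁻¹))) ^ 10 = 1 →
    (q * (y0.1.2 * q * y0.1.2⁻¹) * (q * (y0.1.2 * (y0.1.2 * q * y0.1.2⁻¹) * y0.1.2⁻¹))) ^ 10 = 1 →
    q = 1 ∨ ∃ k : Fin 3, (y0 ^ k.1).1.2 * q * (y0 ^ k.1)⁻¹.1.2 = v0.1.2 ∨
      (y0 ^ k.1).1.2 * q * (y0 ^ k.1)⁻¹.1.2 = (a0 * v0 * a0).1.2 := by
  revert q; refine pb_all ?_; decide +kernel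

theorem pb_f (p : Perm (Fin 3)) : (p * z0.1.1 = z0.1.1 * p ↔ Perm.sign p = 1) ∧
    (Perm.sign p = 1 → p ^ 30 = 1 ∧ (p ^ 10 = 1 → p = 1)) := by
  revert p; decide +kernel

theorem pb_s (l : L0) : Perm.sign l.1.1 = 1 ↔ Perm.sign l.1.2 = 1 := by
  have : Perm.sign l.1.1 * Perm.sign l.1.2 = 1 := MonoidHom.mem_ker.1 l.2
  constructor <;> intro e <;> simpa [e] using this

theorem pb_z (l : L0) : l * z0 = z0 * l ↔ Perm.sign l.1.1 = 1 := by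
  rw [← (pb_f l.1.1).1]
  exact ⟨fun e => congrArg (·.1.1) e, fun e => Subtype.ext (Prod.ext e ((mul_one _).trans (one_mul _).symm))⟩

theorem pb_d1 (l : L0) (h1 : l * v0 = v0 * l) (h2 : l * (y0 * v0 * y0⁻¹) = y0 * v0 * y0⁻¹ * l) : l * z0 = z0 * l ∧
    (l ^ 10 = 1 → l = 1 ∨ l = v0 ∨ l = y0 * v0 * y0⁻¹ ∨ l = v0 * (y0 * v0 * y0⁻¹)) := by
  obtain ⟨a, b⟩ := pb_e1 l.1.2 (congrArg (·.1.2) h1) (congrArg (·.1.2) h2)
  refine ⟨(pb_z l).2 ((pb_s l).2 a), fun e => ?_⟩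
  have c : l.1.1 = 1 := ((pb_f _).2 ((pb_s l).2 a)).2 (congrArg (·.1.1) e)
  have k : ∀ m : L0, m.1.1 = 1 → l.1.2 = m.1.2 → l = m := fun m e1 e2 => Subtype.ext (Prod.ext (c.trans e1.symm) e2)
  exact b.imp (k _ rfl) (.imp (k _ rfl) (.imp (k _ (by decide +kernel)) (k _ (by decide +kernel))))

theorem pb_d2 (l : L0) (h : l * z0 = z0 * l) : (l ^ 10) ^ 3 = 1 := by
  rw [← pow_mul]
  exact Subtype.ext (Prod.ext ((pb_f _).2 ((pb_z l).1 h)).1 (pb_e2 _ ((pb_s l).1 ((pb_z l).1 h))))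

theorem pb_d3 (l : L0) (h : l * z0 = z0 * l) (h1 : l ^ 10 = 1) (h2 : (l * (y0 * l * y0⁻¹)) ^ 10 = 1)
    (h3 : (l * (l * (y0 * l * y0⁻¹))) ^ 10 = 1)
    (h4 : (l * (y0 * l * y0⁻¹) * (l * (y0 * (y0 * l * y0⁻¹) * y0⁻¹))) ^ 10 = 1) :
    l = 1 ∨ ∃ k : ℕ, y0 ^ k * l * (y0 ^ k)⁻¹ = v0 ∨ y0 ^ k * l * (y0 ^ k)⁻¹ = a0 * v0 * a0 := by
  have a := (pb_z l).1 h
  have c : l.1.1 = 1 := ((pb_f _).2 a).2 (congrArg (·.1.1) h1)
  refine (pb_e3 l.1.2 ((pb_s l).1 a) (congrArg (·.1.2) h1) (congrArg (·.1.2) h2) (congrArg (·.1.2) h3)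
    (congrArg (·.1.2) h4)).imp (fun e => Subtype.ext (Prod.ext c e)) fun ⟨k, e⟩ => ⟨k, ?_⟩
  have k1 : (y0 ^ k.1 * l * (y0 ^ k.1)⁻¹).1.1 = 1 := by
    change (y0 ^ k.1).1.1 * l.1.1 * (y0 ^ k.1).1.1⁻¹ = 1
    rw [c, mul_one, mul_inv_cancel]
  exact e.imp (fun e => Subtype.ext (Prod.ext k1 e)) fun e => Subtype.ext (Prod.ext (k1.trans (by decide +kernel)) e)

variable {G : Type*} [Group G] [Finite G] {ψ : L0 →* G} {t : G}

theorem F1.dich (h : F1 ψ t) : (∀ g, g * ψ v0 = ψ v0 * g → g * ψ (y0*v0*y0⁻¹) = ψ (y0*v0*y0⁻¹) * g →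
    ∃ x ∈ closure {ψ v0, ψ (y0*v0*y0⁻¹)}, ∃ k : ℕ, g = x * ψ z0 ^ k) ∨ Commute (ψ v0) (t * ψ v0 * t⁻¹) ∨
    Commute (ψ v0) (t * ψ (a0*v0*a0) * t⁻¹) := by
  have := Fact.mk Nat.prime_three
  have := Fact.mk Nat.prime_two
  obtain ⟨C, hC⟩ : ∃ C : Subgroup G, ∀ g, g ∈ C ↔ g * ψ v0 = ψ v0 * g ∧ g * ψ (y0*v0*y0⁻¹) = ψ (y0*v0*y0⁻¹) * g :=
    ⟨centralizer {ψ v0} ⊓ centralizer {ψ (y0*v0*y0⁻¹)}, fun g => by
      rw [mem_inf, mem_centralizer_singleton_iff, mem_centralizer_singleton_iff]⟩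
  have mm : ∀ {a b c d : L0}, a * b = c * d → ψ a * ψ b = ψ c * ψ d := fun e => by rw [← map_mul, ← map_mul, e]
  have mi : ∀ {a b c d : L0}, ψ a * ψ b = ψ c * ψ d → a * b = c * d := fun e => h.inj (by rw [map_mul, map_mul, e])
  have cj : ∀ {a b c : L0}, a * b * a⁻¹ = c → ψ a * ψ b * (ψ a)⁻¹ = ψ c := fun e => by
    rw [← map_inv, ← map_mul, ← map_mul, e]
  have o3 : ∀ {a : L0}, a ^ 3 = 1 → a ≠ 1 → orderOf (ψ a) = 3 := fun e n =>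
    (orderOf_injective ψ h.inj _).trans (orderOf_eq_prime e n)
  have zy : Commute (ψ z0) (ψ y0) := mm (by decide +kernel)
  have hn : ∀ g ∈ C, g * ψ z0 * g⁻¹ ∈ zpowers (ψ z0) → g * ψ z0 = ψ z0 * g := fun g hg e => by
    obtain ⟨l, rfl⟩ := h.nz g e
    exact mm (pb_d1 l (mi ((hC _).1 hg).1) (mi ((hC _).1 hg).2)).1
  obtain ⟨R, RC, R3, Rz, Ry, dec, gen⟩ := cv (C := C) (o3 (by decide +kernel) (by decide +kernel))
    (o3 (by decide +kernel) (by decide +kernel)) zy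
    (by
      rintro ⟨k, e⟩
      have : (z0 ^ k).1.2 = y0.1.2 := congrArg (·.1.2) (h.inj ((map_zpow ψ z0 k).trans e))
      exact absurd ((one_zpow k).symm.trans this) (by decide +kernel))
    ((hC _).2 ⟨mm (by decide +kernel), mm (by decide +kernel)⟩)
    (fun g hg => by
      obtain ⟨c1, c2⟩ := (hC g).1 hg
      have k : ∀ u, g * u = u * g → ψ y0 * g * (ψ y0)⁻¹ * (ψ y0 * u * (ψ y0)⁻¹) =
          ψ y0 * u * (ψ y0)⁻¹ * (ψ y0 * g * (ψ y0)⁻¹) := fun u e => by rw [conj_mul, conj_mul, e]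
      refine (hC _).2 ⟨?_, cj (c := y0 * v0 * y0⁻¹) rfl ▸ k _ c1⟩
      have := k (ψ (v0 * (y0 * v0 * y0⁻¹))) (by rw [map_mul ψ v0, ← mul_assoc g, c1, mul_assoc (ψ v0), c2, mul_assoc (ψ v0)])
      rwa [cj (c := v0) (by decide +kernel)] at this)
    (fun e => h.h9 (ψ v0) ((orderOf_injective ψ h.inj _).trans (orderOf_eq_prime (by decide +kernel) (by decide +kernel)))
      (e.trans (card_dvd_of_le fun g hg => mem_centralizer_singleton_iff.2 ((hC g).1 hg).1))) hn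
  have no3 : ∀ r ∈ R, r ^ 3 = 1 → r = 1 := fun r hr e => by_contra fun n =>
    R3 (orderOf_eq_prime e n ▸ R.orderOf_dvd_natCard hr)
  have kz : ∀ r ∈ R, r * ψ z0 = ψ z0 * r → r ∈ closure {ψ v0, ψ (y0*v0*y0⁻¹)} := fun r hr e => by
    obtain ⟨l, rfl⟩ := h.nz r (by rw [e, mul_inv_cancel_right]; exact mem_zpowers _)
    have a : ψ v0 ∈ closure {ψ v0, ψ (y0*v0*y0⁻¹)} := subset_closure (by simp)
    have b : ψ (y0*v0*y0⁻¹) ∈ closure {ψ v0, ψ (y0*v0*y0⁻¹)} := subset_closure (by simp)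
    rcases (pb_d1 l (mi ((hC _).1 (RC hr)).1) (mi ((hC _).1 (RC hr)).2)).2 (h.inj (by
      rw [map_pow, map_one]; exact no3 _ (pow_mem hr 10) (by rw [← map_pow, ← map_pow, pb_d2 l (mi e), map_one])))
      with rfl | rfl | rfl | rfl
    exacts [map_one ψ ▸ one_mem _, a, b, map_mul ψ v0 _ ▸ mul_mem a b]
  have z3 : ψ z0 ^ 3 = 1 := by rw [← map_pow, sd0.z3, map_one]
  have kc : ∀ r ∈ R, Commute (r * ψ z0 * r⁻¹) (ψ z0) → r ∈ closure {ψ v0, ψ (y0*v0*y0⁻¹)} := fun r hr e => by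
    refine kz r hr ?_
    have := no3 _ (mul_mem hr (Rz _ (inv_mem hr))) (by
      rw [← mul_assoc, ← mul_assoc, e.inv_right.mul_pow, conj_pow, inv_pow, z3]; simp)
    rwa [← mul_assoc, ← mul_assoc, mul_inv_eq_one, mul_inv_eq_iff_eq_mul] at this
  have ky : ∀ g, g * (ψ z0 * ψ y0) = ψ z0 * ψ y0 * g → Commute (g * ψ z0 * g⁻¹) (ψ z0) := fun g e => by
    rcases h.ny g (by rw [map_mul, e, mul_inv_cancel_right]; exact mem_zpowers _) with ⟨k, e⟩ | ⟨k, e⟩ <;> rw [← e]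
    exacts [(Commute.refl _).zpow_left k, zy.symm.zpow_left k]
  by_cases hy : ∀ r ∈ R, r * ψ y0 = ψ y0 * r → r = 1
  · refine .inl fun g g1 g2 => ?_
    obtain ⟨r, hr, k, e⟩ := dec g ((hC g).2 ⟨g1, g2⟩)
    refine ⟨r, gen _ kz (fun r hr e => hy r hr e ▸ one_mem _) (fun r hr e => kc r hr (ky r e)) (fun r hr e => kc r hr ?_) hr,
      k, e⟩
    have az : ψ a0 * ψ z0 * (ψ a0)⁻¹ = ψ z0 := cj (by decide +kernel)
    have ay : ψ a0 * (ψ y0)⁻¹ * (ψ a0)⁻¹ = ψ y0 := by rw [← map_inv ψ y0]; exact cj (by decide +kernel)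
    have := ky (ψ a0 * r * (ψ a0)⁻¹) (by rw [← ay, ← az, conj_mul, conj_mul, conj_mul, e])
    rw [← az, show ψ a0 * r * (ψ a0)⁻¹ * (ψ a0 * ψ z0 * (ψ a0)⁻¹) * (ψ a0 * r * (ψ a0)⁻¹)⁻¹ =
      ψ a0 * (r * ψ z0 * r⁻¹) * (ψ a0)⁻¹ by group] at this
    exact (Commute.conj_iff _).1 this
  push Not at hy
  obtain ⟨r, hr, e, r1⟩ := hy
  have ti : t⁻¹ = t := inv_eq_of_mul_eq_one_right h.tt
  have ty : t * ψ y0 * t⁻¹ = ψ z0 := by rw [← h.tz, ti, ← mul_assoc, ← mul_assoc, h.tt, one_mul, mul_assoc, h.tt, mul_one]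
  have rz : t⁻¹ * r * t * ψ z0 = ψ z0 * (t⁻¹ * r * t) := by
    rw [show t⁻¹ * r * t * ψ z0 = t⁻¹ * (r * (t * ψ z0 * t⁻¹)) * t by group, h.tz, e, ← h.tz]; group
  obtain ⟨l, hl⟩ := h.nz (t⁻¹ * r * t) (by rw [rz, mul_inv_cancel_right]; exact mem_zpowers _)
  rw [← hl] at rz
  let R' : Subgroup L0 := R.comap ((MulAut.conj t).toMonoidHom.comp ψ) ⊓ centralizer {z0}
  have m' : ∀ m, m ∈ R' ↔ t * ψ m * t⁻¹ ∈ R ∧ m * z0 = z0 * m := fun m => by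
    rw [mem_inf, mem_centralizer_singleton_iff]; rfl
  have lR : l ∈ R' := (m' l).2 ⟨by rw [hl]; simpa [mul_assoc] using hr, mi rz⟩
  have yR : ∀ m ∈ R', y0 * m * y0⁻¹ ∈ R' := fun m hm => (m' _).2 ⟨by
    have := Rz _ ((m' m).1 hm).1
    rwa [← ty, conj_inv, conj_mul, conj_mul, cj rfl] at this, by
    rw [show z0 = y0 * z0 * y0⁻¹ by decide +kernel, conj_mul, conj_mul, ((m' m).1 hm).2]⟩
  have p10 : ∀ m ∈ R', m ^ 10 = 1 := fun m hm => h.inj (by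
    have := no3 _ ((m' _).1 (pow_mem hm 10)).1 (by rw [conj_pow, ← map_pow, pb_d2 m ((m' m).1 hm).2, map_one]; simp)
    rw [map_one]
    rwa [mul_inv_eq_one, mul_eq_left] at this)
  have l1 := yR l lR
  rcases pb_d3 l (mi rz) (p10 l lR) (p10 _ (mul_mem lR l1)) (p10 _ (mul_mem lR (mul_mem lR l1)))
    (p10 _ (mul_mem (mul_mem lR l1) (mul_mem lR (yR _ l1)))) with rfl | ⟨k, e⟩
  · rw [map_one, eq_comm, mul_assoc, inv_mul_eq_one, eq_comm, mul_eq_right] at hl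
    exact absurd hl r1
  have : y0 ^ k * l * (y0 ^ k)⁻¹ ∈ R' := by
    clear e
    induction k with
    | zero => simpa using lR
    | succ k ih => simpa [pow_succ', mul_assoc] using yR _ ih
  exact .inr (e.imp (fun e => (((hC _).1 (RC ((m' _).1 (e ▸ this)).1)).1).symm)
    fun e => (((hC _).1 (RC ((m' _).1 (e ▸ this)).1)).1).symm)

end Cfsg.Agent.A8R
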