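import Cfsg.Agent.A8R.A
import Cfsg.Agent.Spor.J.A8ra
import Cfsg.Agent.Spor.J.A8rb
import Cfsg.Agent.Spor.Act6

/-! A presentation of `Alt(8)` as an amalgam of two groups `(S₃ × S₅)⁺` (helper20): `toA8`. -/

set_option autoImplicit false
set_option maxRecDepth 100000

namespace Cfsg.Agent.A8R

open Equiv Subgroup Cfsg.Agent.Spor

variable {G : Type*} [Group G]

/-- The letters. -/
def pdLets (z y a b v w : G) : ℕ → G
  | 0 => z | 1 => z⁻¹ | 2 => y | 3 => y⁻¹ | 4 => a | 5 => b | 6 => v | 7 => w | _ => 1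

theorem pd_rels {z y a b v w : G} (h : Sd z y a b v) (h' : Sd y z b a w) (c : Commute v w) :
    ∀ r ∈ JA8rb.rels, ev (pdLets z y a b v w) r = 1 := by
  have c1 : ∀ {g k : G}, k * k = 1 → g * k = k * g → k * g⁻¹ * k * g = 1 := fun {g k} h h' => by
    rw [mul_assoc, ← h', mul_assoc k, inv_mul_cancel_left, h]
  have c2 : ∀ {g k : G}, g * k * g * k = 1 → k * g * k * g = 1 := fun {g k} h => by
    rw [mul_assoc, mul_assoc, mul_eq_one_comm, ← mul_assoc g, h]
  have c3 : ∀ {g k : G}, g * g = 1 → k * k = 1 → g * k = k * g → k * g * k * g = 1 := fun {g k} h h' e => by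
    rw [mul_assoc k, e, ← mul_assoc, h', one_mul, h]
  have p : ∀ {g k : G}, g = 1 → k = g → k = 1 := fun h e => e.trans h
  simp only [JA8rb.rels, List.forall_mem_cons]
  refine ⟨rfl, ?_, ?_, ?_, ?_, ?_, ?_, ?_, ?_, ?_, ?_, ?_, ?_, ?_, ?_, ?_, ?_, ?_, ?_, ?_, ?_, ?_, ?_, ?_, ?_, ?_, ?_, ?_,
    ?_, ?_, by simp⟩ <;> simp only [ev, pdLets, one_mul]
  exacts [inv_mul_cancel z, mul_inv_cancel z, inv_mul_cancel y, mul_inv_cancel y, h.aa, h.bb, h.vv, h'.vv,
    p h.z3 (pow_three' z).symm, p h.y3 (pow_three' y).symm, by rw [mul_assoc, ← h.zy]; group, c1 h.aa h.za,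
    c1 h.vv h.zv, c2 h.bz, c2 h.ay, c1 h.bb h.yb, c3 h.aa h.bb h.ab,
    p h.yv (by simp only [pow_succ, pow_zero, one_mul, mul_assoc]),
    p h.av (by simp only [pow_succ, pow_zero, one_mul, mul_assoc]),
    p h.yav (by simp only [pow_succ, pow_zero, one_mul, mul_assoc]),
    p h.abv (by simp only [pow_succ, pow_zero, one_mul, mul_assoc]),
    p h.bv (by simp only [pow_succ, pow_zero, one_mul, mul_assoc]), c1 h'.vv h'.zv,
    p h'.yv (by simp only [pow_succ, pow_zero, one_mul, mul_assoc]),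
    p h'.av (by simp only [pow_succ, pow_zero, one_mul, mul_assoc]),
    p h'.yav (by simp only [pow_succ, pow_zero, one_mul, mul_assoc]),
    p h'.abv (by simp only [pow_succ, pow_zero, one_mul, mul_assoc]),
    p h'.bv (by simp only [pow_succ, pow_zero, one_mul, mul_assoc]), c3 h.vv h'.vv c.eq]

theorem pd_up {g : ℕ → G} (he : g 255 = 1) (hg : ∀ r ∈ JA8rb.rels, ev g r = 1) :
    CardLe (genL g (List.range 8)) 20160 :=
  (cardLe_bot.of_relIndex (JA8ra.relIndex_le he (rels_of_sub hg (by decide +kernel)) fun _ h => nomatch h)).of_relIndex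
    (JA8rb.relIndex_le he hg fun _ hw => genW_le_genL (by decide) (mem_genW g hw))

theorem pd_top : genL (pdLets pz py pa pb pv pw) (List.range 8) = ⊤ := by
  have key : ∀ x y : Fin 8, x ≠ y → ∃ w ∈ [[], [0, 0], [2, 2, 6, 4, 7, 0, 7, 4, 6, 2], [2, 6, 4, 7, 0, 7, 4, 6, 2, 2],
      [6, 4, 7, 0, 7, 4, 6], [4, 7, 0, 7, 4], [7, 0, 7], [0], [0, 7, 4, 2, 6, 5, 7, 2, 0], [0, 7, 5, 2, 6, 2, 4, 7, 0],
      [6, 4, 0, 7, 4, 6, 0], [4, 0, 7, 4, 0], [0, 7, 0], [7, 4, 2, 6, 5, 7, 2], [7, 5, 2, 6, 2, 4, 7], [6, 4, 7, 4, 6],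
      [4, 7, 4], [7], [5, 4], [5, 4, 2], [5, 4, 2, 6, 2], [4, 2, 6, 5, 2], [5, 2, 4], [2, 6, 5, 2, 4], [5, 2, 6, 2, 4],
      [6, 5, 4], [5, 6, 4], [5]], (ev (pdLets pz py pa pb pv pw) w).1 = swap 0 1 * swap x y := by decide +kernel
  set H := (genL (pdLets pz py pa pb pv pw) (List.range 8)).map A8.subtype with hH
  have k2 : ∀ x y : Fin 8, x ≠ y → swap 0 1 * swap x y ∈ H := fun x y h => by
    obtain ⟨w, hw, e⟩ := key x y h
    exact ⟨_, genW_le_genL (by decide) (mem_genW _ hw), e⟩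
  have k3 : ∀ σ : Perm (Fin 8), (Perm.sign σ = 1 → σ ∈ H) ∧ (Perm.sign σ = -1 → swap 0 1 * σ ∈ H) := fun σ => by
    induction σ using Perm.swap_induction_on with
    | one => exact ⟨fun _ => one_mem _, fun h => absurd h (by decide)⟩
    | swap_mul f x y h ih =>
      rw [map_mul, Perm.sign_swap h]
      refine ⟨fun e => ?_, fun e => ?_⟩
      · have := mul_mem (inv_mem (k2 x y h)) (ih.2 (by rwa [neg_one_mul, neg_eq_iff_eq_neg] at e))
        rwa [mul_inv_rev, mul_assoc, inv_mul_cancel_left, swap_inv] at this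
      · rw [← mul_assoc]
        exact mul_mem (k2 x y h) (ih.1 (by rwa [neg_one_mul, neg_inj] at e))
  refine top_le_iff.1 fun σ _ => ?_
  obtain ⟨τ, h1, h2⟩ := (k3 σ.1).1 (Perm.mem_alternatingGroup.1 σ.2)
  exact (show τ = σ from Subtype.ext h2) ▸ h1

theorem toA8 {z y a b v w : G} (h : Sd z y a b v) (h' : Sd y z b a w) (c : Commute v w) (z1 : z ≠ 1) :
    ∃ φ : A8 →* G, Function.Injective φ ∧ φ pz = z ∧ φ py = y ∧ φ pa = a ∧ φ pb = b ∧ φ pv = v ∧ φ pw = w := by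
  have hc : Nat.card A8 = 20160 := by
    rw [nat_card_alternatingGroup, Nat.card_eq_fintype_card, Fintype.card_fin]; rfl
  obtain ⟨ρ, k1, -⟩ := exists_hom_of_up pd_top hc (h := pdLets z y a b v w)
    (pd_up (prG_255 rfl rfl) (prG_rels (pd_rels sdp sdp' (by unfold Commute SemiconjBy; decide +kernel)) (pd_rels h h' c)))
  have := alternatingGroup.isSimpleGroup (α := Fin 8) (by simp)
  refine ⟨ρ, (MonoidHom.ker_eq_bot_iff ρ).1 ((ρ.normal_ker.eq_bot_or_eq_top).resolve_right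
    fun e => z1 (show pdLets z y a b v w 0 = 1 by rw [← k1 0 (by decide), ← MonoidHom.mem_ker, e]; trivial)),
    k1 0 (by decide), k1 2 (by decide), k1 4 (by decide), k1 5 (by decide), k1 6 (by decide), k1 7 (by decide)⟩

end Cfsg.Agent.A8R
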