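import Cfsg.Agent.A8R.PN

/-! In the second frame the Sylow 2-subgroups of `G` have order at most 64. -/

set_option autoImplicit false
set_option linter.unusedSectionVars false

namespace Cfsg.Agent.A8R

open Equiv Subgroup

/-- the elements of the Sylow 2-subgroup of the model -/
def el2 (a b c d x y : Bool) : A8 :=
  cond a pv 1 * cond b pv2 1 * cond c pw 1 * cond d pw2 1 * cond x (pa * pb) 1 * cond y pt 1

/-- the Sylow 2-subgroup of the model -/
def T64 : Subgroup A8 := closure {pv, pv2, pw, pw2, pa * pb, pt}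

/-- fast model of a permutation of 8 points -/
structure T8 where
  a0 : Fin 8
  a1 : Fin 8
  a2 : Fin 8
  a3 : Fin 8
  a4 : Fin 8
  a5 : Fin 8
  a6 : Fin 8
  a7 : Fin 8
  deriving DecidableEq

/-- evaluation -/
def T8.ap (t : T8) (x : Fin 8) : Fin 8 :=
  cond (x.1.ble 3) (cond (x.1.ble 1) (cond (x.1.ble 0) t.a0 t.a1) (cond (x.1.ble 2) t.a2 t.a3))
    (cond (x.1.ble 5) (cond (x.1.ble 4) t.a4 t.a5) (cond (x.1.ble 6) t.a6 t.a7))
/-- composition -/
def T8.mul (s t : T8) : T8 := ⟨s.ap t.a0, s.ap t.a1, s.ap t.a2, s.ap t.a3, s.ap t.a4, s.ap t.a5, s.ap t.a6, s.ap t.a7⟩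
/-- has a fixed point -/
def T8.fx (t : T8) : Bool := t.a0 == 0 || t.a1 == 1 || t.a2 == 2 || t.a3 == 3 || t.a4 == 4 || t.a5 == 5 || t.a6 == 6 || t.a7 == 7
/-- the table of an element -/
def tup (p : A8) : T8 := ⟨p.1 0, p.1 1, p.1 2, p.1 3, p.1 4, p.1 5, p.1 6, p.1 7⟩

theorem tup_ap (p : A8) (x : Fin 8) : (tup p).ap x = p.1 x := by fin_cases x <;> rfl
theorem tup_mul (p q : A8) : tup (p * q) = (tup p).mul (tup q) := by
  simp only [T8.mul, tup_ap]; rfl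
theorem tup_inj {p q : A8} : p = q ↔ tup p = tup q :=
  ⟨congrArg _, fun e => Subtype.ext (Equiv.ext fun x => by rw [← tup_ap, ← tup_ap, e])⟩
theorem tup_fx (p : A8) : fp p ↔ (tup p).fx = true := by
  simp only [fp, T8.fx, tup, Fin.exists_fin_succ, Bool.or_eq_true, beq_iff_eq, or_assoc]
  simp

def t1 : T8 := ⟨0, 1, 2, 3, 4, 5, 6, 7⟩
def tv : T8 := ⟨0, 1, 2, 4, 3, 6, 5, 7⟩
def tv2 : T8 := ⟨0, 1, 2, 6, 5, 4, 3, 7⟩
def tw : T8 := ⟨1, 0, 7, 3, 4, 5, 6, 2⟩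
def tw2 : T8 := ⟨7, 2, 1, 3, 4, 5, 6, 0⟩
def tab : T8 := ⟨1, 0, 2, 4, 3, 5, 6, 7⟩
def tt8 : T8 := ⟨3, 4, 5, 0, 1, 2, 7, 6⟩
theorem tup_gen : tup 1 = t1 ∧ tup pv = tv ∧ tup pv2 = tv2 ∧ tup pw = tw ∧ tup pw2 = tw2 ∧ tup (pa * pb) = tab ∧ tup pt = tt8 := by
  decide +kernel

/-- table of `el2` -/
def tel (a b c d x y : Bool) : T8 :=
  (((((cond a tv t1).mul (cond b tv2 t1)).mul (cond c tw t1)).mul (cond d tw2 t1)).mul (cond x tab t1)).mul (cond y tt8 t1)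

theorem tup_el2 (a b c d x y : Bool) : tup (el2 a b c d x y) = tel a b c d x y := by
  obtain ⟨h0, h1, h2, h3, h4, h5, h6⟩ := tup_gen
  have k : ∀ (u : Bool) (s : A8), tup (cond u s 1) = cond u (tup s) t1 := fun u s => by cases u <;> simp [h0]
  unfold el2 tel
  rw [tup_mul, tup_mul, tup_mul, tup_mul, tup_mul, k, k, k, k, k, k, h1, h2, h3, h4, h5, h6]

set_option maxHeartbeats 4000000 in
theorem tel_step : ∀ s ∈ [tv, tv2, tw, tw2, tab, tt8],
    ∀ a b c d x y : Bool, ∃ y' x' d' c' b' a' : Bool, s.mul (tel a b c d x y) = tel a' b' c' d' x' y' := by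
  decide +kernel

theorem el2_step : ∀ s ∈ [pv, pv2, pw, pw2, pa * pb, pt], s⁻¹ = s ∧
    ∀ a b c d x y : Bool, ∃ y' x' d' c' b' a' : Bool, s * el2 a b c d x y = el2 a' b' c' d' x' y' := fun s hs => by
  obtain ⟨h0, h1, h2, h3, h4, h5, h6⟩ := tup_gen
  have : s * s = 1 ∧ tup s ∈ [tv, tv2, tw, tw2, tab, tt8] := by
    simp only [List.mem_cons, List.not_mem_nil, or_false] at hs
    rcases hs with rfl | rfl | rfl | rfl | rfl | rfl <;> refine ⟨by decide +kernel, ?_⟩ <;> simp [h1, h2, h3, h4, h5, h6]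
  refine ⟨inv_eq_of_mul_eq_one_right this.1, fun a b c d x y => ?_⟩
  simp only [tup_inj, tup_mul s, tup_el2]
  exact tel_step _ this.2 a b c d x y

theorem T64_el {p : A8} (hp : p ∈ T64) : ∃ a b c d x y : Bool, p = el2 a b c d x y := by
  induction hp using closure_induction_left with
  | one => exact ⟨false, false, false, false, false, false, by decide +kernel⟩
  | mul_left s hs p _ ih =>
    obtain ⟨a, b, c, d, x, y, rfl⟩ := ih
    obtain ⟨y', x', d', c', b', a', e⟩ := (el2_step s (by simpa using hs)).2 a b c d x y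
    exact ⟨_, _, _, _, _, _, e⟩
  | inv_mul_cancel s hs p _ ih =>
    obtain ⟨a, b, c, d, x, y, rfl⟩ := ih
    obtain ⟨y', x', d', c', b', a', e⟩ := (el2_step s (by simpa using hs)).2 a b c d x y
    exact ⟨_, _, _, _, _, _, by rw [(el2_step s (by simpa using hs)).1]; exact e⟩

theorem el2_mem (a b c d x y : Bool) : el2 a b c d x y ∈ T64 := by
  have k : ∀ (u : Bool) (s : A8), s ∈ T64 → cond u s 1 ∈ T64 := fun u s hs => by
    cases u
    · exact one_mem _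
    · exact hs
  refine mul_mem (mul_mem (mul_mem (mul_mem (mul_mem (k _ _ ?_) (k _ _ ?_)) (k _ _ ?_)) (k _ _ ?_)) (k _ _ ?_)) (k _ _ ?_) <;>
    exact subset_closure (by simp)

theorem tel_pow : ∀ a b c d x y : Bool, ((tel a b c d x y).mul (tel a b c d x y)).mul
    ((tel a b c d x y).mul (tel a b c d x y)) = t1 := by decide +kernel

theorem el2_pow (a b c d x y : Bool) : el2 a b c d x y ^ 2 ^ 2 = 1 := by
  rw [show 2 ^ 2 = 2 + 2 from rfl, pow_add, pow_two, tup_inj, tup_mul, tup_mul, tup_el2, tup_gen.1]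
  exact tel_pow a b c d x y

set_option maxHeartbeats 4000000 in
theorem tel_inj : ∀ a b c d x y a' b' c' d' x' y' : Bool, tel a b c d x y = tel a' b' c' d' x' y' →
    (a, b, c, d, x, y) = (a', b', c', d', x', y') := by decide +kernel

theorem el2_inj (a b c d x y a' b' c' d' x' y' : Bool) (e : el2 a b c d x y = el2 a' b' c' d' x' y') :
    (a, b, c, d, x, y) = (a', b', c', d', x', y') :=
  tel_inj _ _ _ _ _ _ _ _ _ _ _ _ (by rw [← tup_el2, e, tup_el2])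

theorem T64_pg : IsPGroup 2 T64 := fun ⟨p, hp⟩ => by
  obtain ⟨a, b, c, d, x, y, rfl⟩ := T64_el hp
  exact ⟨2, Subtype.ext (el2_pow a b c d x y)⟩

theorem T64_card : 64 ≤ Nat.card T64 := by
  have := Nat.card_le_card_of_injective (fun q : Bool × Bool × Bool × Bool × Bool × Bool =>
    (⟨el2 q.1 q.2.1 q.2.2.1 q.2.2.2.1 q.2.2.2.2.1 q.2.2.2.2.2, el2_mem _ _ _ _ _ _⟩ : T64))
    (fun q q' e => el2_inj _ _ _ _ _ _ _ _ _ _ _ _ (congrArg Subtype.val e))
  simpa using this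

/-- the involutions with fixed points in `T64` -/
def L10 : List T8 := [⟨0, 1, 2, 4, 3, 6, 5, 7⟩, ⟨0, 1, 2, 6, 5, 4, 3, 7⟩, ⟨0, 1, 2, 5, 6, 3, 4, 7⟩, ⟨1, 0, 7, 3, 4, 5, 6, 2⟩,
  ⟨7, 2, 1, 3, 4, 5, 6, 0⟩, ⟨2, 7, 0, 3, 4, 5, 6, 1⟩, ⟨1, 0, 2, 4, 3, 5, 6, 7⟩, ⟨1, 0, 2, 3, 4, 6, 5, 7⟩,
  ⟨0, 1, 7, 4, 3, 5, 6, 2⟩, ⟨0, 1, 7, 3, 4, 6, 5, 2⟩]

theorem tel_ten : ∀ a b c d x y : Bool, (tel a b c d x y).fx = true → (tel a b c d x y).mul (tel a b c d x y) = t1 →
    tel a b c d x y ≠ t1 → tel a b c d x y ∈ L10 := by decide +kernel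

theorem el2_ten (a b c d x y : Bool) (h1 : fp (el2 a b c d x y)) (h2 : el2 a b c d x y * el2 a b c d x y = 1)
    (h3 : el2 a b c d x y ≠ 1) : tup (el2 a b c d x y) ∈ L10 := by
  rw [tup_fx, tup_el2] at h1
  rw [tup_inj, tup_mul, tup_el2, tup_gen.1] at h2
  rw [Ne, tup_inj, tup_el2, tup_gen.1] at h3
  rw [tup_el2]
  exact tel_ten a b c d x y h1 h2 h3

set_option synthInstance.maxSize 4096 in
set_option synthInstance.maxHeartbeats 400000 in
theorem tten_chk : ∀ i ∈ L10, ∀ k ∈ L10, i.mul k ∈ L10 → ∀ j ∈ L10, i.mul j = j.mul i → k.mul j = j.mul k →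
    ¬ (i.mul j).fx = true → ¬ (k.mul j).fx = true → ¬ ((i.mul k).mul j).fx = true →
    (i ∈ [tv, tv2, tv.mul tv2] ∧ k ∈ [tv, tv2, tv.mul tv2]) ∨
      ((tt8.mul i).mul tt8 ∈ [tv, tv2, tv.mul tv2] ∧ (tt8.mul k).mul tt8 ∈ [tv, tv2, tv.mul tv2]) := by decide +kernel

theorem ten_chk (i : A8) (hi : tup i ∈ L10) (k : A8) (hk : tup k ∈ L10) (hik : tup (i * k) ∈ L10) (j : A8) (hj : tup j ∈ L10)
    (c1 : i * j = j * i) (c2 : k * j = j * k) (n1 : ¬ fp (i * j)) (n2 : ¬ fp (k * j)) (n3 : ¬ fp (i * k * j)) :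
    (i ∈ [pv, pv2, pv * pv2] ∧ k ∈ [pv, pv2, pv * pv2]) ∨
      (pt * i * pt⁻¹ ∈ [pv, pv2, pv * pv2] ∧ pt * k * pt⁻¹ ∈ [pv, pv2, pv * pv2]) := by
  obtain ⟨h0, h1, h2, h3, h4, h5, h6⟩ := tup_gen
  have m : ∀ q : A8, tup q ∈ [tv, tv2, tv.mul tv2] → q ∈ [pv, pv2, pv * pv2] := fun q hq => by
    rw [← h1, ← h2, ← tup_mul] at hq
    simpa only [List.mem_cons, List.not_mem_nil, or_false, ← tup_inj] using hq
  rw [tup_inj, tup_mul, tup_mul] at c1 c2
  rw [tup_fx, tup_mul] at n1 n2 n3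
  rw [tup_mul] at hik n3
  rw [show pt⁻¹ = pt from inv_eq_of_mul_eq_one_right (by decide +kernel)]
  rcases tten_chk _ hi _ hk hik _ hj c1 c2 n1 n2 n3 with ⟨a1, a2⟩ | ⟨a1, a2⟩
  · exact .inl ⟨m _ a1, m _ a2⟩
  · exact .inr ⟨m _ (by rwa [tup_mul, tup_mul, h6]), m _ (by rwa [tup_mul, tup_mul, h6])⟩

variable {G : Type*} [Group G] [Finite G] {φ : A8 →* G}

theorem F2.nT64 (h : F2 φ)
    (nf : ∀ {i j : A8}, orderOf i = 2 → orderOf j = 2 → IsConj (φ i) (φ j) → (fp i ↔ fp j))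
    (nV : ∀ g, g * φ pv * g⁻¹ ∈ (closure {pv, pv2}).map φ → g * φ pv2 * g⁻¹ ∈ (closure {pv, pv2}).map φ → g ∈ φ.range)
    {g : G} (hg : g ∈ normalizer (T64.map φ : Set G)) : g ∈ φ.range := by
  haveI : Fact (Nat.Prime 2) := Nat.fact_prime_two
  have tr : ∀ {i p : A8}, φ i = g * φ p * g⁻¹ → p * p = 1 → p ≠ 1 → i * i = 1 ∧ i ≠ 1 ∧ (fp i ↔ fp p) := fun {i p} e p2 p1 => by
    have i2 : i * i = 1 := h.inj (by
      rw [map_mul, e, map_one]
      calc _ = g * φ (p * p) * g⁻¹ := by rw [map_mul]; group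
        _ = 1 := by rw [p2, map_one]; group)
    have i1 : i ≠ 1 := fun e1 => by
      rw [e1, map_one, eq_comm, conj_eq_one_iff, ← map_one φ, h.inj.eq_iff] at e
      exact p1 e
    exact ⟨i2, i1, nf (orderOf_eq_prime (by rw [pow_two, i2]) i1) (orderOf_eq_prime (by rw [pow_two, p2]) p1)
      (isConj_iff.2 ⟨g, e.symm⟩).symm⟩
  have ten : ∀ {i p : A8}, i ∈ T64 → φ i = g * φ p * g⁻¹ → p * p = 1 → p ≠ 1 → fp p → tup i ∈ L10 := fun {i p} hi e p2 p1 fpp => by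
    obtain ⟨i2, i1, e⟩ := tr e p2 p1
    obtain ⟨a, b, c, d, x, y, rfl⟩ := T64_el hi
    exact el2_ten a b c d x y (e.2 fpp) i2 i1
  have ml : ∀ {i p k q : A8}, φ i = g * φ p * g⁻¹ → φ k = g * φ q * g⁻¹ → φ (i * k) = g * φ (p * q) * g⁻¹ :=
    fun e1 e2 => by rw [map_mul, map_mul, e1, e2]; group
  have im : ∀ p ∈ T64, ∃ i ∈ T64, φ i = g * φ p * g⁻¹ := fun p hp =>
    (mem_normalizer_iff.1 hg (φ p)).1 ⟨p, hp, rfl⟩
  obtain ⟨i, hi, ei⟩ := im pv (subset_closure (by simp))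
  obtain ⟨k, hk, ek⟩ := im pv2 (subset_closure (by simp))
  obtain ⟨j, hj, ej⟩ := im pw (subset_closure (by simp))
  have mV : ∀ q ∈ [pv, pv2, pv * pv2], φ q ∈ (closure {pv, pv2}).map φ := fun q hq => by
    refine ⟨q, ?_, rfl⟩
    have a1 : pv ∈ closure ({pv, pv2} : Set A8) := subset_closure (by simp)
    have a2 : pv2 ∈ closure ({pv, pv2} : Set A8) := subset_closure (by simp)
    simp only [List.mem_cons, List.not_mem_nil, or_false] at hq
    rcases hq with rfl | rfl | rfl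
    exacts [a1, a2, mul_mem a1 a2]
  rcases ten_chk i (ten hi ei (by decide +kernel) (by decide +kernel) (by decide +kernel))
    k (ten hk ek (by decide +kernel) (by decide +kernel) (by decide +kernel))
    (ten (mul_mem hi hk) (ml ei ek) (by decide +kernel) (by decide +kernel) (by decide +kernel))
    j (ten hj ej (by decide +kernel) (by decide +kernel) (by decide +kernel))
    (h.inj (by rw [ml ei ej, ml ej ei, show pv * pw = pw * pv by decide +kernel]))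
    (h.inj (by rw [ml ek ej, ml ej ek, show pv2 * pw = pw * pv2 by decide +kernel]))
    (fun f => absurd ((tr (ml ei ej) (by decide +kernel) (by decide +kernel)).2.2.1 f) (by decide +kernel))
    (fun f => absurd ((tr (ml ek ej) (by decide +kernel) (by decide +kernel)).2.2.1 f) (by decide +kernel))
    (fun f => absurd ((tr (ml (ml ei ek) ej) (by decide +kernel) (by decide +kernel)).2.2.1 f) (by decide +kernel))
    with ⟨h1, h2⟩ | ⟨h1, h2⟩
  · exact nV g (ei ▸ mV _ h1) (ek ▸ mV _ h2)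
  · have := nV (φ pt * g) (by
      have := mV _ h1
      rwa [map_mul, map_mul, map_inv, ei, show φ pt * (g * φ pv * g⁻¹) * (φ pt)⁻¹ = φ pt * g * φ pv * (φ pt * g)⁻¹ by group] at this) (by
      have := mV _ h2
      rwa [map_mul, map_mul, map_inv, ek, show φ pt * (g * φ pv2 * g⁻¹) * (φ pt)⁻¹ = φ pt * g * φ pv2 * (φ pt * g)⁻¹ by group] at this)
    exact (mul_mem_cancel_left (show φ pt ∈ φ.range from ⟨pt, rfl⟩)).1 this

theorem F2.syl' (h : F2 φ)
    (nf : ∀ {i j : A8}, orderOf i = 2 → orderOf j = 2 → IsConj (φ i) (φ j) → (fp i ↔ fp j))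
    (nV : ∀ g, g * φ pv * g⁻¹ ∈ (closure {pv, pv2}).map φ → g * φ pv2 * g⁻¹ ∈ (closure {pv, pv2}).map φ → g ∈ φ.range) :
    ¬ 128 ∣ Nat.card G := fun hd => by
  haveI : Fact (Nat.Prime 2) := Nat.fact_prime_two
  obtain ⟨P, hP⟩ := (T64_pg.map φ).exists_le_sylow
  have cT : 64 ≤ Nat.card (T64.map φ) := by rw [Subgroup.card_map_of_injective h.inj]; exact T64_card
  have cR : Nat.card φ.range = 20160 := by
    rw [← Nat.card_congr (MonoidHom.ofInjective h.inj).toEquiv, nat_card_alternatingGroup]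
    simp [Nat.factorial]
  have cQ : Nat.card ((P : Subgroup G) ⊓ φ.range : Subgroup G) ≤ 64 := by
    obtain ⟨n, hn⟩ := IsPGroup.iff_card.1 (P.2.to_inf_left (K := φ.range))
    have h1 := Subgroup.card_dvd_of_le (inf_le_right : (P : Subgroup G) ⊓ φ.range ≤ φ.range)
    rw [hn, cR] at h1
    rw [hn]
    by_contra hlt
    have h7 : 7 ≤ n := by
      by_contra h6
      exact hlt ((Nat.pow_le_pow_right (by norm_num) (show n ≤ 6 by omega)).trans (by norm_num))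
    exact absurd ((pow_dvd_pow 2 h7).trans h1) (by norm_num)
  have eT : T64.map φ = (P : Subgroup G) ⊓ φ.range :=
    Subgroup.eq_of_le_of_card_ge (le_inf hP (map_le_range _ _)) (cQ.trans cT)
  have eP : (T64.map φ).subgroupOf (P : Subgroup G) = ⊤ := by
    by_contra hne
    haveI := P.2.isNilpotent
    obtain ⟨g, hg, hg'⟩ := SetLike.exists_of_lt (Group.normalizerCondition_of_isNilpotent _ (lt_top_iff_ne_top.2 hne))
    refine hg' ?_
    rw [mem_subgroupOf, eT]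
    refine ⟨g.2, h.nT64 nf nV ?_⟩
    rw [← subgroupOf_normalizer_eq hP, mem_subgroupOf] at hg
    exact hg
  have h128 : 2 ^ 7 ∣ Nat.card P := P.pow_dvd_card_of_pow_dvd_card (by simpa using hd)
  have h64 : Nat.card (P : Subgroup G) ≤ 64 := by
    refine le_trans (Subgroup.card_le_of_le ?_) cQ
    rw [← eT]; exact subgroupOf_eq_top.1 eP
  have := Nat.le_of_dvd Nat.card_pos h128
  omega

theorem F2.syl (h : F2 φ)
    (nV : ∀ g, g * φ pv * g⁻¹ ∈ (closure {pv, pv2}).map φ → g * φ pv2 * g⁻¹ ∈ (closure {pv, pv2}).map φ → g ∈ φ.range) :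
    ¬ 128 ∣ Nat.card G :=
  h.syl' (fun hi hj c => h.nf hi hj c) nV

end Cfsg.Agent.A8R
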