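import Cfsg.Agent.A8R.PG0
import Cfsg.Agent.A8R.PN

/-! From the first frame to the second (helper27). -/

set_option autoImplicit false

namespace Cfsg.Agent.A8R

open Equiv Subgroup

theorem F1.f2 {G : Type*} [Group G] [Finite G] {ψ : L0 →* G} {t : G} (h : F1 ψ t) {φ : A8 →* G}
    (hi : Function.Injective φ) (e1 : φ pz = ψ z0) (e2 : φ py = ψ y0) (e3 : φ pa = ψ a0)
    (e4 : φ pb = ψ b0) (e5 : φ pv = ψ v0) : F2 φ :=
  h.f2' hi e1 e2 e3 e4 e5 cls3 (fun a b c d e f g k => nc a b c d e f g k)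

end Cfsg.Agent.A8R
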