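import Cfsg.Agent.A8R.A

/-! From the first frame to the second (helper27). -/

set_option autoImplicit false

namespace Cfsg.Agent.A8R

open Equiv Subgroup

theorem pg_gen3 : ∀ p : Perm (Fin 3), ∃ i : Fin 3, ∃ j : Fin 2,
    p = (z0 ^ (i : ℕ) * b0 ^ (j : ℕ)).1.1 := by decide +kernel

theorem pg_gen5 : ∀ q : Perm (Fin 5), Perm.sign q = 1 → ∃ n : Fin 5, ∃ k l : Fin 2, ∃ m : Fin 3,
    q = ((y0 * a0 * v0) ^ (n : ℕ) * v0 ^ (k : ℕ) * (y0 * v0 * y0⁻¹) ^ (l : ℕ) * y0 ^ (m : ℕ)).1.2 := by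
  decide +kernel

theorem pg_w1 : ∀ n : Fin 5, ∀ k l : Fin 2, ∀ m : Fin 3,
    ((y0 * a0 * v0) ^ (n : ℕ) * v0 ^ (k : ℕ) * (y0 * v0 * y0⁻¹) ^ (l : ℕ) * y0 ^ (m : ℕ)).1.1 = 1 := by
  decide +kernel

/-- `L0` is generated by `z0 y0 a0 b0 v0`. -/
theorem pg_top (K : Subgroup L0) (hz : z0 ∈ K) (hy : y0 ∈ K) (ha : a0 ∈ K) (hb : b0 ∈ K)
    (hv : v0 ∈ K) (l : L0) : l ∈ K := by
  obtain ⟨i, j, hp⟩ := pg_gen3 l.1.1
  set u : L0 := z0 ^ (i : ℕ) * b0 ^ (j : ℕ) with hu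
  have h1 : (u⁻¹ * l).1.1 = 1 := by
    rw [Subgroup.coe_mul, Subgroup.coe_inv, Prod.fst_mul, Prod.fst_inv, hp, inv_mul_cancel]
  have h2 : Perm.sign (u⁻¹ * l).1.2 = 1 := by
    have := MonoidHom.mem_ker.1 (u⁻¹ * l).2
    simp only [MonoidHom.mul_apply, MonoidHom.comp_apply, MonoidHom.coe_fst, MonoidHom.coe_snd,
      h1, map_one, one_mul] at this
    exact this
  obtain ⟨n, k, l', m, hq⟩ := pg_gen5 _ h2
  have h3 : u⁻¹ * l = (y0 * a0 * v0) ^ (n : ℕ) * v0 ^ (k : ℕ) * (y0 * v0 * y0⁻¹) ^ (l' : ℕ) *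
      y0 ^ (m : ℕ) := Subtype.ext (Prod.ext (h1.trans (pg_w1 n k l' m).symm) hq)
  have h4 : u⁻¹ * l ∈ K := by
    rw [h3]
    exact K.mul_mem (K.mul_mem (K.mul_mem (K.pow_mem (K.mul_mem (K.mul_mem hy ha) hv) _)
      (K.pow_mem hv _)) (K.pow_mem (K.mul_mem (K.mul_mem hy hv) (K.inv_mem hy)) _)) (K.pow_mem hy _)
  have h5 : u ∈ K := K.mul_mem (K.pow_mem hz _) (K.pow_mem hb _)
  have := K.mul_mem h5 h4
  rwa [mul_inv_cancel_left] at this

theorem pg_four {H : Type*} [Group H] {e f : H} (e2 : e * e = 1) (f2 : f * f = 1)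
    (c : f * e = e * f) (e1 : e ≠ 1) (f1 : f ≠ 1) (ne : e ≠ f) : 4 ∣ Nat.card H := by
  have a1 : e * (e * f) = f := by rw [← mul_assoc, e2, one_mul]
  have a2 : f * (e * f) = e := by rw [← c, ← mul_assoc, f2, one_mul]
  have a3 : e * f * e = f := by rw [mul_assoc, c, a1]
  have a4 : e * f * f = e := by rw [mul_assoc, f2, mul_one]
  have a5 : e * f * (e * f) = 1 := by rw [← mul_assoc, a3, f2]
  have i1 : e⁻¹ = e := inv_eq_of_mul_eq_one_right e2
  have i2 : f⁻¹ = f := inv_eq_of_mul_eq_one_right f2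
  have i3 : (e * f)⁻¹ = e * f := inv_eq_of_mul_eq_one_right a5
  let K : Subgroup H :=
    { carrier := {1, e, f, e * f}
      one_mem' := by simp
      mul_mem' := by
        intro x y hx hy
        simp only [Set.mem_insert_iff, Set.mem_singleton_iff] at hx hy ⊢
        rcases hx with rfl | rfl | rfl | rfl <;> rcases hy with rfl | rfl | rfl | rfl <;>
          simp only [one_mul, mul_one, e2, f2, c, a1, a2, a3, a4, a5, true_or, or_true]
      inv_mem' := by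
        intro x hx
        simp only [Set.mem_insert_iff, Set.mem_singleton_iff] at hx ⊢
        rcases hx with rfl | rfl | rfl | rfl <;>
          simp only [inv_one, i1, i2, i3, true_or, or_true] }
  have n1 : e * f ≠ 1 := fun h => ne (by rw [← a4, h, one_mul])
  have n2 : e ≠ e * f := fun h => f1 (by simpa using h)
  have n3 : f ≠ e * f := fun h => e1 (by simpa using h)
  have hK : Nat.card K = 4 := by
    change Nat.card ({1, e, f, e * f} : Set H) = 4
    rw [Nat.card_coe_set_eq, Set.ncard_insert_of_notMem, Set.ncard_insert_of_notMem,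
      Set.ncard_pair n3]
    · simp only [Set.mem_insert_iff, Set.mem_singleton_iff, not_or]; exact ⟨ne, n2⟩
    · simp only [Set.mem_insert_iff, Set.mem_singleton_iff, not_or]
      exact ⟨e1.symm, f1.symm, n1.symm⟩
  rw [← hK]
  exact K.card_subgroup_dvd_card

variable {G : Type*} [Group G]

theorem pg_conj {c x p g : G} (h : c * x * c⁻¹ = p) (hg : g * x * g⁻¹ ∈ zpowers x) :
    (c * g * c⁻¹) * p * (c * g * c⁻¹)⁻¹ ∈ zpowers p := by
  obtain ⟨k, hk⟩ := mem_zpowers_iff.1 hg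
  refine mem_zpowers_iff.2 ⟨k, ?_⟩
  rw [← h, conj_zpow, hk]
  group

theorem pg_ord3 {x : L0} (h3 : x ^ 3 = 1) (h1 : x ≠ 1) : orderOf x = 3 :=
  haveI : Fact (Nat.Prime 3) := ⟨Nat.prime_three⟩
  orderOf_eq_prime h3 h1

/-- `F1.f2` with the two facts of `PN` as hypotheses. -/
theorem F1.f2' {ψ : L0 →* G} {t : G} (h : F1 ψ t) {φ : A8 →* G} (hi : Function.Injective φ)
    (e1 : φ pz = ψ z0) (e2 : φ py = ψ y0) (e3 : φ pa = ψ a0) (e4 : φ pb = ψ b0)
    (e5 : φ pv = ψ v0)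
    (hcls3 : ∀ x : A8, orderOf x = 3 → IsConj x pz ∨ IsConj x (pz * py))
    (hnc : ∀ {z y t v : G}, orderOf z = 3 → orderOf y = 3 → orderOf v = 2 → Commute z v →
      Commute y t → (∀ i : G, orderOf i = 2 → ¬ 9 ∣ Nat.card (centralizer ({i} : Set G))) →
      4 ∣ Nat.card (centralizer ({z} : Set G)) → ¬ 4 ∣ Nat.card (centralizer ({y} : Set G)) →
      ¬ IsConj t v) : F2 φ := by
  have hle : ∀ g ∈ ψ.range, g ∈ φ.range := by
    rintro _ ⟨l, rfl⟩
    exact pg_top (φ.range.comap ψ) ⟨pz, e1⟩ ⟨py, e2⟩ ⟨pa, e3⟩ ⟨pb, e4⟩ ⟨pv, e5⟩ l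
  have nz : ∀ g : G, g * φ pz * g⁻¹ ∈ zpowers (φ pz) → g ∈ φ.range := by
    intro g hg
    rw [e1] at hg
    exact hle g (h.nz g hg)
  have e12 : φ (pz * py) = ψ (z0 * y0) := by rw [map_mul, map_mul, e1, e2]
  have ny : ∀ g : G, g * φ (pz * py) * g⁻¹ ∈ zpowers (φ (pz * py)) → g ∈ φ.range := by
    intro g hg
    rw [e12] at hg
    rcases h.ny g hg with h1 | h1
    · rw [← e1] at h1
      exact nz g h1
    · rw [← e1, ← e2] at h1
      obtain ⟨k, hk⟩ := mem_zpowers_iff.1 h1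
      have ht : φ py = φ pt * φ pz * (φ pt)⁻¹ := by rw [← pt_pz, map_mul, map_mul, map_inv]
      have h2 : ((φ pt)⁻¹ * g) * φ pz * ((φ pt)⁻¹ * g)⁻¹ ∈ zpowers (φ pz) := by
        refine mem_zpowers_iff.2 ⟨k, ?_⟩
        rw [ht, conj_zpow] at hk
        calc φ pz ^ k = (φ pt)⁻¹ * (φ pt * φ pz ^ k * (φ pt)⁻¹) * φ pt := by group
          _ = _ := by rw [hk]; group
      have h3 := φ.range.mul_mem ⟨pt, rfl⟩ (nz _ h2)
      rwa [mul_inv_cancel_left] at h3
  have back : ∀ (c : A8) (g : G), φ c * g * (φ c)⁻¹ ∈ φ.range → g ∈ φ.range := by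
    intro c g hg
    have := φ.range.mul_mem (φ.range.mul_mem (φ.range.inv_mem ⟨c, rfl⟩) hg) ⟨c, rfl⟩
    have e : (φ c)⁻¹ * (φ c * g * (φ c)⁻¹) * φ c = g := by group
    rwa [e] at this
  refine ⟨hi, ?_, h.h9, ?_⟩
  · intro x hx g hg
    rcases hcls3 x hx with hc | hc
    · obtain ⟨c, hc⟩ := isConj_iff.1 hc
      have hc' : φ c * φ x * (φ c)⁻¹ = φ pz := by rw [← hc, map_mul, map_mul, map_inv]
      exact back c g (nz _ (pg_conj hc' hg))
    · obtain ⟨c, hc⟩ := isConj_iff.1 hc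
      have hc' : φ c * φ x * (φ c)⁻¹ = φ (pz * py) := by
        rw [← hc, map_mul φ _ c⁻¹, map_mul φ c, map_inv]
      exact back c g (ny _ (pg_conj hc' hg))
  · have oz : orderOf (ψ z0) = 3 := by
      rw [orderOf_injective ψ h.inj]; exact pg_ord3 (by decide +kernel) (by decide +kernel)
    have oy : orderOf (ψ (z0 * y0)) = 3 := by
      rw [orderOf_injective ψ h.inj]; exact pg_ord3 (by decide +kernel) (by decide +kernel)
    have ov : orderOf (φ pv) = 2 := by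
      rw [orderOf_injective φ hi]
      exact orderOf_eq_prime (by decide +kernel) (by decide +kernel)
    have c1 : Commute (ψ z0) (φ pv) := by
      rw [e5]
      exact Commute.map (show z0 * v0 = v0 * z0 by decide +kernel) ψ
    have c2 : Commute (ψ (z0 * y0)) (φ pt) := by
      rw [← e12]
      exact Commute.map (show pz * py * pt = pt * (pz * py) by decide +kernel) φ
    refine hnc oz oy ov c1 c2 h.h9 ?_ h.hy
    have m : ∀ l : L0, z0 * l = l * z0 → ψ l ∈ centralizer ({ψ z0} : Set G) := by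
      intro l hl
      rw [mem_centralizer_iff]
      rintro _ rfl
      rw [← map_mul, ← map_mul, hl]
    refine pg_four (e := (⟨ψ v0, m v0 (by decide +kernel)⟩ : centralizer ({ψ z0} : Set G)))
      (f := ⟨ψ (y0 * v0 * y0⁻¹), m _ (by decide +kernel)⟩) ?_ ?_ ?_ ?_ ?_ ?_
    · apply Subtype.ext
      change ψ v0 * ψ v0 = 1
      rw [← map_mul, show v0 * v0 = 1 by decide +kernel, map_one]
    · apply Subtype.ext
      change ψ (y0 * v0 * y0⁻¹) * ψ (y0 * v0 * y0⁻¹) = 1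
      rw [← map_mul, show y0 * v0 * y0⁻¹ * (y0 * v0 * y0⁻¹) = 1 by decide +kernel, map_one]
    · apply Subtype.ext
      change ψ (y0 * v0 * y0⁻¹) * ψ v0 = ψ v0 * ψ (y0 * v0 * y0⁻¹)
      rw [← map_mul, ← map_mul,
        show y0 * v0 * y0⁻¹ * v0 = v0 * (y0 * v0 * y0⁻¹) by decide +kernel]
    · intro e
      have e' : ψ v0 = ψ 1 := by rw [map_one]; exact congrArg Subtype.val e
      exact absurd (h.inj e') (by decide +kernel)
    · intro e
      have e' : ψ (y0 * v0 * y0⁻¹) = ψ 1 := by rw [map_one]; exact congrArg Subtype.val e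
      exact absurd (h.inj e') (by decide +kernel)
    · intro e
      have e' : ψ v0 = ψ (y0 * v0 * y0⁻¹) := congrArg Subtype.val e
      exact absurd (h.inj e') (by decide +kernel)

end Cfsg.Agent.A8R
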